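import Cfsg.Agent.H1.Singer
import Cfsg.Agent.H2.Tmpl

/-!
# Glauberman's theorem on weakly closed central subgroups
-/

set_option autoImplicit false
set_option linter.unusedSectionVars false

namespace Cfsg.Agent.H1

open Subgroup Cfsg.Agent.H2
open scoped Pointwise commutatorElement

variable {G : Type*} [Group G] {p : ℕ} {L V A B T U : Subgroup G}

/-- The configuration produced by the L-lemma. -/
structure GoodT (p : ℕ) (L V A T : Subgroup G) : Prop where
  le : A ≤ L
  norm : V ≤ normalizer (A : Set G)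
  maxAb : MaxAb (A ⊔ V) A
  pg : IsPGroup p A
  sub : T ≤ V
  cent : ∀ m ∈ normalizer (T : Set G), ∀ k : ℕ, m ^ p ^ k = 1 → m ∈ centralizer (T : Set G)
  fix : A ≤ normalizer (T : Set G)
  uniq : ∀ l ∈ L, A ≤ MulAut.conj l • normalizer (T : Set G) → l ∈ normalizer (T : Set G)
  nle : ¬ L ≤ normalizer (T : Set G)
  min : ∀ H : Subgroup G, A ≤ H → H ≤ L → ¬ H ≤ normalizer (T : Set G) → H = L

theorem GoodT.conj [hV : V.Normal] (h : GoodT p L V A T) {g : G} (hg : g ∈ L) :
    GoodT p L V (MulAut.conj g • A) (MulAut.conj g • T) where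
  le := by rw [← H2.conj_smul_eq_self_of_mem hg]; exact conj_smul_le_conj_smul.mpr h.le
  norm := by
    rw [← conj_smul_normalizer, ← conj_smul_normal g V]; exact conj_smul_le_conj_smul.mpr h.norm
  maxAb := by
    have := h.maxAb.map (MulAut.conj g).injective (f := (MulAut.conj g).toMonoidHom)
    rwa [← conj_smul_eq_map, smul_sup, conj_smul_normal g V] at this
  pg := h.pg.map _
  sub := by rw [← conj_smul_normal g V]; exact conj_smul_le_conj_smul.mpr h.sub
  cent := fun m hm k hk => by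
    rw [← conj_smul_normalizer, mem_conj_smul] at hm
    rw [← conj_smul_centralizer, mem_conj_smul]
    refine h.cent _ hm k ?_
    have := conj_pow (i := p ^ k) (a := g⁻¹) (b := m)
    rwa [inv_inv, hk, mul_one, inv_mul_cancel] at this
  fix := by rw [← conj_smul_normalizer]; exact conj_smul_le_conj_smul.mpr h.fix
  uniq := fun l hl hc => by
    rw [← conj_smul_normalizer, conj_smul_le_iff, ← conj_mul_smul, ← conj_mul_smul] at hc
    rw [← conj_smul_normalizer, mem_conj_smul]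
    exact h.uniq _ (L.mul_mem (L.mul_mem (L.inv_mem hg) hl) hg) hc
  nle := by
    rw [← conj_smul_normalizer, ← H2.conj_smul_eq_self_of_mem hg, conj_smul_le_conj_smul]
    exact h.nle
  min := fun H h1 h2 h3 => by
    have := h.min (MulAut.conj g⁻¹ • H) (conj_smul_le_iff.mp h1)
      (by rw [← H2.conj_smul_eq_self_of_mem (L.inv_mem hg)]; exact conj_smul_le_conj_smul.mpr h2)
      (by rwa [conj_smul_le_iff, inv_inv, conj_smul_normalizer])
    rw [← conj_smul_inv_smul g H, this, H2.conj_smul_eq_self_of_mem hg]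

theorem GoodT.le_centralizer (h : GoodT p L V A T) : A ≤ centralizer (A : Set G) :=
  isMulCommutative_iff_le_centralizer.mp h.maxAb.comm

theorem GoodT.comm_mem (h : GoodT p L V A T) {a v : G} (ha : a ∈ A) (hv : v ∈ V) :
    ⁅a, v⁆ ∈ centralizer (A : Set G) := by
  have := A.mul_mem ha ((mem_normalizer_iff.mp (h.norm hv) _).mp (A.inv_mem ha))
  exact h.le_centralizer (by simpa [commutatorElement_def, mul_assoc] using this)

theorem GoodT.cent' (h : GoodT p L V A T) {T' : Subgroup G} {A' : Subgroup G}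
    (h' : GoodT p L V A' T') {a : G} (ha : a ∈ A) (hn : a ∈ normalizer (T' : Set G)) :
    a ∈ centralizer (T' : Set G) := by
  obtain ⟨k, hk⟩ := h.pg ⟨a, ha⟩
  exact h'.cent a hn k (congrArg Subtype.val hk)

theorem GoodT.le_cent (h : GoodT p L V A T) : T ≤ centralizer (A : Set G) :=
  le_centralizer_iff.1 fun _ ha => h.cent' h ha (h.fix ha)

theorem GoodT.two (h : GoodT p L V A T) {b y : G} (hb : b ∈ L)
    (hbx : b ∉ normalizer (T : Set G)) (hy : y ∈ centralizer (A : Set G)) (hby : b * y = y * b) :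
    y ∈ centralizer (L : Set G) := by
  rw [← le_centralizer_singleton_iff, ← h.min (L ⊓ centralizer {y})
    (le_inf h.le (le_centralizer_singleton_iff.mpr hy)) inf_le_left
    (fun hc => hbx (hc ⟨hb, mem_centralizer_singleton_iff.mpr hby⟩))]
  exact inf_le_right

theorem GoodT.exists_conj (h : GoodT p L V A T) {l : G} (hl : l ∈ L)
    (hlx : l ∉ normalizer (T : Set G)) :
    ∃ b ∈ MulAut.conj l • A, b ∈ L ∧ b ∉ normalizer (T : Set G) := by
  obtain ⟨b, h1, h2⟩ := SetLike.not_le_iff_exists.1 fun hc => hlx (by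
    simpa using inv_mem (h.uniq _ (L.inv_mem hl) (conj_smul_le_iff.1 hc)))
  refine ⟨b, h1, ?_, h2⟩
  rw [← H2.conj_smul_eq_self_of_mem hl]
  exact conj_smul_le_conj_smul.mpr h.le h1

theorem GoodT.mem_centralizer (h : GoodT p L V A T) {b y : G} (hb : b ∈ L)
    (hbx : b ∉ normalizer (T : Set G)) (hy : y ∈ centralizer (A : Set G))
    (hby : ⁅b, y⁆ ∈ centralizer (L : Set G)) : y ∈ centralizer (L : Set G) := by
  let H : Subgroup G :=
    { carrier := {l | l ∈ L ∧ ⁅l, y⁆ ∈ centralizer (L : Set G)}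
      one_mem' := ⟨L.one_mem, by simp⟩
      mul_mem' := fun {a b} ha hb => ⟨L.mul_mem ha.1 hb.1, by
        have h1 : ⁅a * b, y⁆ = a * ⁅b, y⁆ * a⁻¹ * ⁅a, y⁆ := by
          simp only [commutatorElement_def]; group
        rw [h1, mem_centralizer_iff.mp hb.2 a ha.1, mul_inv_cancel_right]
        exact Subgroup.mul_mem _ hb.2 ha.2⟩
      inv_mem' := fun {a} ha => ⟨L.inv_mem ha.1, by
        have h1 : ⁅a⁻¹, y⁆ = a⁻¹ * ⁅a, y⁆⁻¹ * a := by
          simp only [commutatorElement_def]; group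
        rw [h1, mem_centralizer_iff.mp (Subgroup.inv_mem _ ha.2) _ (L.inv_mem ha.1),
          inv_mul_cancel_right]
        exact Subgroup.inv_mem _ ha.2⟩ }
  have hH : H = L := h.min H (fun a ha => ⟨h.le ha, by
      rw [commutatorElement_eq_one_iff_mul_comm.mpr (mem_centralizer_iff.mp hy a ha)]
      exact one_mem _⟩) (fun _ hl => hl.1) (fun hc => hbx (hc ⟨hb, hby⟩))
  obtain ⟨c, hc, hcL, hcx⟩ := h.exists_conj hb hbx
  refine h.two hcL hcx hy ?_
  have h2 := mem_centralizer_iff.mp hy _ (mem_conj_smul.mp hc)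
  have h3 := mem_centralizer_iff.mp hby c hcL
  have h4 : c * (⁅b, y⁆ * y) = (⁅b, y⁆ * y) * c := by
    calc c * (⁅b, y⁆ * y) = b * (b⁻¹ * c * b * y) * b⁻¹ := by
          simp only [commutatorElement_def]; group
      _ = (⁅b, y⁆ * y) * c := by rw [h2]; simp only [commutatorElement_def]; group
  rw [← mul_assoc, h3, mul_assoc, mul_assoc] at h4
  exact mul_left_cancel h4

theorem GoodT.mem_norm (h : GoodT p L V A T) {l x : G} (hl : l ∈ L)
    (hx : x ∈ centralizer (A : Set G)) (hxL : x ∉ centralizer (L : Set G))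
    (hlx : l * x * l⁻¹ ∈ centralizer (A : Set G)) : l ∈ normalizer (T : Set G) := by
  by_contra hc
  obtain ⟨b, hb, hbL, hbT⟩ := h.exists_conj hl hc
  have h1 := h.two hbL hbT hlx (mem_centralizer_iff.1
    (conj_smul_centralizer l A ▸ conj_mem_conj_smul hx) b hb)
  rw [← H2.conj_smul_eq_self_of_mem hl, ← conj_smul_centralizer, mem_conj_smul] at h1
  exact hxL (by simpa [mul_assoc] using h1)

variable [Finite G] [hV : V.Normal] [hVc : IsMulCommutative V]

theorem GoodT.fix_all (h : GoodT p L V A T) {a l : G} (ha : a ∈ A) (hl : l ∈ L)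
    (hne : l ∉ normalizer (T : Set G))
    (hfix : a ∈ normalizer ((MulAut.conj l • T : Subgroup G) : Set G)) {k : G} (hk : k ∈ L) :
    a ∈ centralizer ((MulAut.conj k • T : Subgroup G) : Set G) := by
  have hB := h.conj hk
  refine h.cent' hB ha ?_
  by_contra hc
  have hkx : k ∉ normalizer (T : Set G) := fun h1 => hc (by
    rw [conj_smul_eq_iff_mem_normalizer.2 h1]; exact h.fix ha)
  set B := MulAut.conj k • A
  set W := (V ⊓ centralizer (A : Set G)) ⊔ (V ⊓ centralizer (B : Set G)) with hW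
  have hWV : W ≤ V := sup_le inf_le_left inf_le_left
  have hm : ∀ c, ∀ w ∈ W, ⁅c, w⁆ ∈ V := fun c w hw =>
    V.mul_mem (hV.conj_mem w (hWV hw) c) (V.inv_mem (hWV hw))
  have hLW : L ≤ normalizer (W : Set G) := by
    obtain ⟨b, hb, -, hbT⟩ := h.exists_conj hk hkx
    rw [← h.min (A ⊔ B) le_sup_left (sup_le h.le hB.le) (fun h1 => hbT (h1 (mem_sup_right hb)))]
    refine sup_le (fun c hc => ?_) fun c hc => ?_ <;>
      refine mem_normalizer_of_conj_mem fun w hw => ?_
    · have := W.mul_mem (mem_sup_left ⟨hm c w hw, h.comm_mem hc (hWV hw)⟩) hw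
      simpa [commutatorElement_def] using this
    · have := W.mul_mem (mem_sup_right ⟨hm c w hw, hB.comm_mem hc (hWV hw)⟩) hw
      simpa [commutatorElement_def] using this
  refine hne (h.uniq l hl ?_)
  rw [conj_smul_normalizer]
  refine le_trans (le_centralizer_iff.1 fun x hx => ?_) (centralizer_le_normalizer _)
  have h0 := mem_conj_smul.1 hx
  have h1 : x ∈ W := by
    simpa [mul_assoc] using (mem_normalizer_iff.mp (hLW hl) _).mp
      (mem_sup_left ⟨h.sub h0, h.le_cent h0⟩)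
  obtain ⟨u, hu, y, hy, huy⟩ := (mem_sup_of_le_normalizer (inf_le_left.trans
    (((isMulCommutative_iff_le_centralizer.mp hVc).trans (centralizer_le inf_le_left)).trans
      (centralizer_le_normalizer _)))).mp h1
  have h2 : a * y = y * a := by
    have h3 := (mem_centralizer_iff.mp (h.cent' (h.conj hl) ha hfix) x hx).symm
    rw [← huy, ← mul_assoc, mem_centralizer_iff.mp hu.2 a ha, mul_assoc, mul_assoc] at h3
    exact mul_left_cancel h3
  rw [← huy]
  exact Subgroup.mul_mem _ hu.2 (centralizer_le h.le (hB.two (h.le ha) hc hy.2 h2))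

theorem GoodT.relIndex_le (h : GoodT p L V A T) (hU : U ≤ V) :
    (centralizer (A : Set G)).relIndex U ≤ (centralizer (U : Set G)).relIndex A := by
  set A₀ := centralizer (U : Set G) ⊓ A
  have hc : A₀ ≤ centralizer (U : Set G) := inf_le_left
  have h1 := h.maxAb.card_le (B := A₀ ⊔ U) (sup_le_sup inf_le_right hU)
    (isMulCommutative_sup (isMulCommutative_of_le h.maxAb.comm inf_le_right)
      (isMulCommutative_of_le hVc hU) hc)
  have h2 := card_sup_mul_card_inf (hc.trans (centralizer_le_normalizer _))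
  have h3 := card_inf_mul_relIndex (centralizer (U : Set G)) A
  have h4 := card_inf_mul_relIndex (centralizer (A : Set G)) U
  have h5 : Nat.card (A₀ ⊓ U : Subgroup G) ≤
      Nat.card (centralizer (A : Set G) ⊓ U : Subgroup G) :=
    card_le_of_le (inf_le_inf_right _ (inf_le_right.trans h.le_centralizer))
  have h6 : 0 < Nat.card A₀ * Nat.card (centralizer (A : Set G) ⊓ U : Subgroup G) :=
    Nat.mul_pos Nat.card_pos Nat.card_pos
  refine Nat.le_of_mul_le_mul_left ?_ h6
  rw [mul_assoc, h4, ← h2, mul_right_comm, h3]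
  exact Nat.mul_le_mul h1 h5

/-- A pair of conjugates together with the module. -/
structure PairT (p : ℕ) (L V A B T U : Subgroup G) (g : G) : Prop where
  good : GoodT p L V A T
  mem : g ∈ L
  nmem : g ∉ normalizer (T : Set G)
  eq : B = MulAut.conj g • A
  sub : U ≤ V
  norm : L ≤ normalizer (U : Set G)
  le : T ≤ U
  cent : ∀ a, (∀ k ∈ L, a ∈ centralizer ((MulAut.conj k • T : Subgroup G) : Set G)) →
    a ∈ centralizer (U : Set G)

variable {g : G}

theorem PairT.symm (h : PairT p L V A B T U g) : PairT p L V B A (MulAut.conj g • T) U g⁻¹ where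
  good := h.eq ▸ h.good.conj h.mem
  mem := L.inv_mem h.mem
  nmem := by rw [← conj_smul_normalizer, mem_conj_smul]; simpa using h.nmem
  eq := by rw [h.eq, conj_inv_smul_smul]
  sub := h.sub
  norm := h.norm
  le := by
    rw [← conj_smul_eq_iff_mem_normalizer.2 (h.norm h.mem)]
    exact conj_smul_le_conj_smul.2 h.le
  cent := fun a ha => h.cent a fun k hk => by
    have := ha (k * g⁻¹) (L.mul_mem hk (L.inv_mem h.mem))
    rwa [← conj_mul_smul, inv_mul_cancel_right] at this

theorem PairT.disj (h : PairT p L V A B T U g) {y : G} (h1 : y ∈ centralizer (A : Set G))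
    (h2 : y ∈ centralizer (B : Set G)) : y ∈ centralizer (L : Set G) := by
  obtain ⟨b, hb, hbL, hbT⟩ := h.good.exists_conj h.mem h.nmem
  exact h.good.two hbL hbT h1 (mem_centralizer_iff.1 h2 b (h.eq ▸ hb))

theorem PairT.ne (h : PairT p L V A B T U g) :
    ¬ U ⊓ centralizer (A : Set G) ≤ U ⊓ centralizer (L : Set G) := fun e => h.good.nle
  ((le_centralizer_iff.1 (((le_inf h.le h.good.le_cent).trans e).trans inf_le_right)).trans
    (centralizer_le_normalizer _))

theorem PairT.comm_mem (h : PairT p L V A B T U g) {a u : G} (ha : a ∈ A) (hu : u ∈ U) :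
    ⁅a, u⁆ ∈ U ⊓ centralizer (A : Set G) :=
  ⟨U.mul_mem ((mem_normalizer_iff.1 (h.norm (h.good.le ha)) u).1 hu) (U.inv_mem hu),
    h.good.comm_mem ha (h.sub hu)⟩

theorem PairT.exists_inj (h : PairT p L V A B T U g) {y : G}
    (hy : y ∈ U ⊓ centralizer (B : Set G)) (hyL : y ∉ centralizer (L : Set G)) :
    ∃ f : A ⧸ (centralizer (U : Set G)).subgroupOf A → ↥(U ⊓ centralizer (A : Set G)) ⧸
      (centralizer (B : Set G)).subgroupOf (U ⊓ centralizer (A : Set G)),
      Function.Injective f ∧ ∀ q, f q = QuotientGroup.mk ⟨_, h.comm_mem q.out.2 hy.1⟩ := by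
  refine ⟨_, fun q r hqr => ?_, fun _ => rfl⟩
  have h1 := QuotientGroup.eq.mp hqr
  rw [mem_subgroupOf] at h1
  simp only [coe_mul, coe_inv] at h1
  rw [← QuotientGroup.out_eq' q, ← QuotientGroup.out_eq' r, QuotientGroup.eq, mem_subgroupOf]
  set b : G := (q.out : G)
  set b' : G := (r.out : G)
  have hb : b ∈ A := q.out.2
  have hd : b⁻¹ * b' ∈ A := A.mul_mem (A.inv_mem hb) r.out.2
  have e1 := h.comm_mem hb hy.1
  have e3 := h.comm_mem hd hy.1
  have h2 : ⁅b', y⁆ = ⁅b⁻¹ * b', y⁆ * ⁅b, y⁆ := by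
    rw [← mul_inv_cancel_right ⁅b⁻¹ * b', y⁆ b, ← mem_centralizer_iff.mp e3.2 b hb]
    simp only [commutatorElement_def]; group
  rw [h2, H2.comm_of_isMulCommutative hVc (h.sub e3.1) (h.sub e1.1), inv_mul_cancel_left] at h1
  refine h.cent _ fun k hk => h.good.fix_all hd h.mem h.nmem ?_ hk
  by_contra hc
  exact hyL (h.symm.good.mem_centralizer (h.good.le hd) hc hy.2 (h.disj e3.2 h1))

theorem PairT.chain (h : PairT p L V A B T U g) :
    (centralizer (U : Set G)).relIndex A ≤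
      (centralizer (B : Set G)).relIndex (U ⊓ centralizer (A : Set G)) ∧
    (centralizer (B : Set G)).relIndex (U ⊓ centralizer (A : Set G)) ≤
      (centralizer (B : Set G)).relIndex U ∧
    (centralizer (B : Set G)).relIndex U ≤ (centralizer (U : Set G)).relIndex B := by
  obtain ⟨y, hy, hyL⟩ := SetLike.not_le_iff_exists.1 h.symm.ne
  obtain ⟨f, hf, -⟩ := h.exists_inj hy fun e => hyL ⟨hy.1, e⟩
  exact ⟨Nat.card_le_card_of_injective f hf,
    relIndex_le_of_le_right inf_le_left index_ne_zero_of_finite, h.symm.good.relIndex_le h.sub⟩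

theorem PairT.sup (h : PairT p L V A B T U g) {u : G} (hu : u ∈ U) :
    ∃ x ∈ U ⊓ centralizer (A : Set G), ∃ y ∈ U ⊓ centralizer (B : Set G), u = x * y := by
  obtain ⟨h1, -, h3⟩ := h.chain
  obtain ⟨h4, h5, h6⟩ := h.symm.chain
  obtain ⟨q, hq⟩ := ((quotientSubgroupOfEmbeddingOfLE (centralizer (B : Set G))
    (inf_le_left : U ⊓ centralizer (A : Set G) ≤ U)).injective.bijective_of_nat_card_le
    (h3.trans (h4.trans (h5.trans (h6.trans h1))))).2 (QuotientGroup.mk ⟨u, hu⟩)
  obtain ⟨x, rfl⟩ := QuotientGroup.mk_surjective q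
  rw [quotientSubgroupOfEmbeddingOfLE_apply_mk, QuotientGroup.eq] at hq
  exact ⟨x, x.2, (x : G)⁻¹ * u, ⟨U.mul_mem (U.inv_mem x.2.1) hu, hq⟩, by simp⟩

theorem PairT.surj (h : PairT p L V A B T U g) {y x : G} (hy : y ∈ U ⊓ centralizer (B : Set G))
    (hyL : y ∉ U ⊓ centralizer (L : Set G)) (hx : x ∈ U ⊓ centralizer (A : Set G)) :
    ∃ a ∈ A, x⁻¹ * ⁅a, y⁆ ∈ U ⊓ centralizer (L : Set G) := by
  obtain ⟨-, h2, h3⟩ := h.chain
  obtain ⟨h4, h5, h6⟩ := h.symm.chain
  obtain ⟨f, hf, e⟩ := h.exists_inj hy fun e => hyL ⟨hy.1, e⟩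
  obtain ⟨q, hq⟩ := (hf.bijective_of_nat_card_le (h2.trans (h3.trans (h4.trans (h5.trans h6))))).2
    (QuotientGroup.mk ⟨x, hx⟩)
  rw [e, eq_comm, QuotientGroup.eq] at hq
  have := mul_mem (inv_mem hx) (h.comm_mem q.out.2 hy.1)
  exact ⟨_, q.out.2, this.1, h.disj this.2 hq⟩

theorem PairT.conj_iff (h : PairT p L V A B T U g) {x : G} :
    g * x * g⁻¹ ∈ U ⊓ centralizer (B : Set G) ↔ x ∈ U ⊓ centralizer (A : Set G) := by
  rw [h.eq, ← conj_smul_centralizer, mem_inf, mem_conj_smul,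
    ← mem_normalizer_iff.1 (h.norm h.mem)]
  simp [mul_assoc]

theorem PairT.conj_mem (h : PairT p L V A B T U g) {l z : G} (hl : l ∈ L)
    (hz : z ∈ centralizer (L : Set G)) : l * z * l⁻¹ = z := by
  rw [mem_centralizer_iff.1 hz l hl, mul_inv_cancel_right]

theorem PairT.stab (h : PairT p L V A B T U g) {l x : G} (hl : l ∈ normalizer (T : Set G))
    (hlL : l ∈ L) (hx : x ∈ U ⊓ centralizer (A : Set G)) :
    l * x * l⁻¹ ∈ U ⊓ centralizer (A : Set G) := by
  obtain ⟨u, hu, v, hv, e⟩ := h.sup ((mem_normalizer_iff.1 (h.norm hlL) x).1 hx.1)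
  by_cases hvL : v ∈ U ⊓ centralizer (L : Set G)
  · exact e ▸ mul_mem hu ⟨hvL.1, centralizer_le h.good.le hvL.2⟩
  obtain ⟨a, ha, hz⟩ := h.surj hv hvL hu
  have hk : l⁻¹ * a * g ∈ L := L.mul_mem (L.mul_mem (L.inv_mem hlL) (h.good.le ha)) h.mem
  have h1 : g⁻¹ * v * g ∈ U ⊓ centralizer (A : Set G) := h.conj_iff.1 (by simpa [mul_assoc] using hv)
  have h2 := h.good.mem_norm hk h1.2 (fun e => hvL ⟨hv.1, by
    have := h.conj_mem h.mem e
    rw [← this] at e
    simpa [mul_assoc] using e⟩) (by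
    have h3 : l⁻¹ * a * g * (g⁻¹ * v * g) * (l⁻¹ * a * g)⁻¹ =
        l⁻¹ * (u * (u⁻¹ * ⁅a, v⁆) * v) * l := by simp only [commutatorElement_def]; group
    have h4 := h.conj_mem (L.inv_mem hlL) hz.2
    rw [h3, H2.comm_of_isMulCommutative hVc (h.sub hu.1) (h.sub hz.1), mul_assoc _ u, ← e,
      show l⁻¹ * (u⁻¹ * ⁅a, v⁆ * (l * x * l⁻¹)) * l = l⁻¹ * (u⁻¹ * ⁅a, v⁆) * l⁻¹⁻¹ * x by group, h4]
    exact mul_mem (centralizer_le h.good.le hz.2) hx.2)
  exact h.nmem.elim ((Subgroup.mul_mem_cancel_left _ (mul_mem (inv_mem hl) (h.good.fix ha))).1 h2)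

theorem PairT.elatM (h : PairT p L V A B T U g) : ElatM L A U (U ⊓ centralizer (A : Set G))
    (U ⊓ centralizer (B : Set G)) (U ⊓ centralizer (L : Set G)) where
  le := h.good.le
  leZ := inf_le_inf_left _ (centralizer_le h.good.le)
  leU := inf_le_left
  disj := fun _ hy => ⟨hy.1.1, h.disj hy.1.2 hy.2.2⟩
  sup := fun _ hu => h.sup hu
  fix := fun a ha x hx => by rw [mem_centralizer_iff.1 hx.2 a ha, mul_inv_cancel_right]
  mem := fun _ ha _ hu => h.comm_mem ha hu
  surj := fun _ hy h0 _ hx => h.surj hy h0 hx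
  same := fun l hl y hy h0 h1 y' hy' => h.symm.stab
    (h.symm.good.mem_norm hl hy.2 (fun e => h0 ⟨hy.1, e⟩) h1.2) hl hy'
  swap := fun l hl y hy h0 h1 y' hy' => by
    have hk := L.mul_mem h.mem hl
    have := h.symm.stab (h.symm.good.mem_norm hk hy.2 (fun e => h0 ⟨hy.1, e⟩)
      (by simpa [mul_assoc] using (h.conj_iff.2 h1).2)) hk hy'
    exact h.conj_iff.1 (by simpa [mul_assoc] using this)
  ne := h.symm.ne

/-- The conclusion in a group. -/
def Sing (p : ℕ) (T : Subgroup G) (g : G) : Prop :=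
  g ∈ normalizer (T : Set G) ∧ (∃ m, m.Coprime p ∧ g ^ m ∈ centralizer (T : Set G)) ∧
    ∃ Z : Subgroup G, (∀ z ∈ Z, g * z * g⁻¹ = z) ∧ ¬ T ≤ Z ∧
      ∀ x ∈ T, ∀ x' ∈ T, x ∉ Z → x' ∉ Z → ∃ n : ℕ, x'⁻¹ * (g ^ n * x * (g ^ n)⁻¹) ∈ Z

theorem GoodT.exists_sing [hp : Fact p.Prime] (hp2 : p ≠ 2) (hVp : IsPGroup p V)
    (h : GoodT p L V A T) : ∃ g, Sing p T g := by
  obtain ⟨g, hg, hgT⟩ := SetLike.not_le_iff_exists.1 h.nle
  let U : Subgroup G := ⨆ k : L, MulAut.conj (k : G) • T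
  have hUV : U ≤ V := iSup_le fun k => (h.conj k.2).sub
  have hp : PairT p L V A _ T U g :=
    { good := h
      mem := hg
      nmem := hgT
      eq := rfl
      sub := hUV
      norm := fun l hl => mem_normalizer_of_conj_mem fun u hu => by
        have : U ≤ MulAut.conj l⁻¹ • U := iSup_le fun k => by
          rw [← conj_smul_le_iff, ← conj_mul_smul]
          exact le_iSup (fun k : L => MulAut.conj (k : G) • T) ⟨_, L.mul_mem hl k.2⟩
        simpa using mem_conj_smul.1 (this hu)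
      le := by simpa using le_iSup (fun k : L => MulAut.conj (k : G) • T) 1
      cent := fun a ha => le_centralizer_singleton_iff.1
        (iSup_le fun k => le_centralizer_singleton_iff.2 (ha k k.2)) }
  haveI := isMulCommutative_of_le hVc hUV
  obtain ⟨c, hc, h1, h2⟩ := hp.elatM.exists_singer hp2 (hVp.to_le hUV) hp.norm
    (fun l hl z hz => (hp.conj_mem hl hz.2).symm ▸ hz) hp.symm.elatM
  obtain ⟨x, hx, hxL⟩ := SetLike.not_le_iff_exists.1 hp.ne
  have hn := h.mem_norm hc hx.2 (fun e => hxL ⟨hx.1, e⟩) (h1 x hx).2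
  have hT := le_inf hp.le h.le_cent
  obtain ⟨k, m, hm, e⟩ := Nat.exists_eq_pow_mul_and_not_dvd (orderOf_pos c).ne' p
    (Fact.out : p.Prime).ne_one
  exact ⟨c, hn, ⟨m, coprime_iff_not_dvd.2 hm, h.cent _ (pow_mem hn m) k (by
      rw [← pow_mul, mul_comm, ← e, pow_orderOf_eq_one])⟩, U ⊓ centralizer (L : Set G), fun z hz => hp.conj_mem hc hz.2,
    fun e => h.nle ((le_centralizer_iff.1 (e.trans inf_le_right)).trans
      (centralizer_le_normalizer _)), fun x hx x' hx' => h2 x (hT hx) x' (hT hx')⟩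

omit hV hVc in
theorem exists_sing_min [hp : Fact p.Prime] (hp2 : p ≠ 2) (P : Sylow p G)
    (hc : centralizer ((pCore p G : Subgroup G) : Set G) ≤ pCore p G)
    (hT : (P : Subgroup G) ≤ centralizer (T : Set G)) (hTP : T ≤ P)
    (hN : normalizer (thompsonSubgroupAOf (P : Subgroup G) : Set G) ≤ normalizer (T : Set G))
    (hmin : ∀ K : Subgroup G, (P : Subgroup G) ≤ K → K ≠ ⊤ → K ≤ normalizer (T : Set G))
    (hM : normalizer (T : Set G) ≠ ⊤) : ∃ g, Sing p T g := by
  set Q := pCore p G with hQ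
  set V := centralizer (Q : Set G) with hV
  haveI hVc : IsMulCommutative V := isMulCommutative_centralizer_pCore hc
  have hQP : Q ≤ P := pCore_le_sylow P
  have hPM := hT.trans (centralizer_le_normalizer _)
  have hTV : T ≤ V := (le_centralizer_iff.1 hT).trans (centralizer_le hQP)
  have hPC : (P : Subgroup G) ⊓ centralizer (V : Set G) ≤ Q := by
    by_contra h
    exact hM (eq_top_of_normal_le P hmin
      ((centralizer_le hTV).trans (centralizer_le_normalizer _)) h)
  have hJ : ¬ thompsonSubgroupAOf (P : Subgroup G) ≤ centralizer (V : Set G) := fun hJ => by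
    have h2 := thompsonA_eq_of_le hQP ((le_inf (thompsonA_le _) hJ).trans hPC)
    refine hM (eq_top_iff.2 (le_trans ?_ hN))
    rw [← h2]
    refine le_trans ?_ (normalizer_le_normalizer_thompsonA Q)
    rw [normalizer_eq_top]
  have hVp : IsPGroup p V := (pCore_isPGroup p G).to_le hc
  obtain ⟨A₁, hA₁, hA₁C, hVA₁⟩ := exists_maxAb_quad P hVp hVc le_rfl hJ
  have hA₁Q : ¬ A₁ ≤ Q := fun h => hA₁C (h.trans (le_centralizer_iff.mp le_rfl))
  obtain ⟨g, L, h1, h2, h3, h4, h5⟩ := exists_L P _ hPM hM hmin A₁ hA₁.le hA₁Q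
  refine GoodT.exists_sing hp2 hVp (L := L) (A := MulAut.conj g • A₁)
    { le := h2
      norm := by
        rw [← conj_smul_normalizer, ← conj_smul_normal g V]
        exact conj_smul_le_conj_smul.mpr hVA₁
      maxAb := by
        have h0 : MaxAb (A₁ ⊔ V) A₁ :=
          hA₁.of_le (sup_le hA₁.le (hc.trans hQP)) le_sup_left
        have := h0.map (MulAut.conj g).injective (f := (MulAut.conj g).toMonoidHom)
        rwa [← conj_smul_eq_map, smul_sup, conj_smul_normal g V] at this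
      pg := (P.2.to_le hA₁.le).map _
      sub := hTV
      cent := fun m hm k hk => by
        obtain ⟨n, hn, e⟩ := exists_conj_le_sylow P hPM (D := zpowers m)
          (IsPGroup.of_card_dvd_pow (n := k) (by
            rw [Nat.card_zpowers]; exact orderOf_dvd_of_pow_eq_one hk)) (zpowers_le.2 hm)
        have := hT (e (conj_mem_conj_smul (mem_zpowers m)))
        rw [← conj_smul_eq_iff_mem_normalizer.2 hn, ← conj_smul_centralizer, mem_conj_smul] at this
        simpa [mul_assoc] using this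
      fix := h1
      uniq := h4
      nle := h3
      min := h5 }

omit hV hVc in
theorem exists_sing [hp : Fact p.Prime] (hp2 : p ≠ 2) (P : Sylow p G)
    (hc : centralizer ((pCore p G : Subgroup G) : Set G) ≤ pCore p G)
    (hT : (P : Subgroup G) ≤ centralizer (T : Set G)) (hTP : T ≤ P)
    (hN : normalizer (thompsonSubgroupAOf (P : Subgroup G) : Set G) ≤ normalizer (T : Set G))
    (hM : normalizer (T : Set G) ≠ ⊤) : ∃ g, Sing p T g := by
  by_contra hne
  refine hM (eq_top_of_min P _ fun H hH hmin => ?_)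
  have e0 : (T.subgroupOf H).map H.subtype = T := map_subgroupOf_eq_of_le (hTP.trans hH)
  have e : (normalizer (T : Set G)).subgroupOf H = normalizer ((T.subgroupOf H : Subgroup H) : Set H) := by
    ext g
    rw [mem_subgroupOf, ← le_normalizer_map_subtype_iff, e0]
  rw [e] at hmin ⊢
  by_contra hM
  obtain ⟨g, h1, ⟨m, h2, h3⟩, Z, h4, h5, h6⟩ := exists_sing_min hp2 (P.subtype hH)
    (charP_subgroup hc ((pCore_le_sylow P).trans hH)) (T := T.subgroupOf H)
    (fun x hx => mem_centralizer_iff.2 fun y hy => Subtype.ext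
      (mem_centralizer_iff.1 (hT hx) y hy)) (fun x hx => hTP hx) (fun g hg => by
        rw [← e, mem_subgroupOf]
        apply hN
        rwa [← le_normalizer_map_subtype_iff, map_thompsonA _ H.subtype_injective,
          map_subtype_sylow] at hg) hmin hM
  have h7 : ∀ x : H, (x : G) ∈ Z.map H.subtype ↔ x ∈ Z := fun x =>
    mem_map_iff_mem H.subtype_injective
  refine hne ⟨g, by rwa [← e] at h1, ⟨m, h2, mem_centralizer_iff.2 fun y hy => congrArg Subtype.val
    (mem_centralizer_iff.1 h3 ⟨y, hH (hTP hy)⟩ hy)⟩, Z.map H.subtype, ?_,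
    fun h => h5 fun x hx => (h7 x).1 (h hx), fun x hx x' hx' h8 h9 => ?_⟩
  · rintro _ ⟨z, hz, rfl⟩
    exact congrArg Subtype.val (h4 z hz)
  · obtain ⟨n, hn⟩ := h6 ⟨x, hH (hTP hx)⟩ hx ⟨x', hH (hTP hx')⟩ hx' (mt (h7 _).2 h8)
      (mt (h7 _).2 h9)
    exact ⟨n, (h7 _).2 hn⟩

theorem sing_aut {T : Type*} [CommGroup T] [Finite T] [hp : Fact p.Prime] (hp2 : p ≠ 2)
    (hT : IsPGroup p T) (ψ : MulAut T) {m : ℕ} (hm : m.Coprime p) (h1 : ψ ^ m = 1) (Z : Subgroup T)
    (h2 : ∀ z ∈ Z, ψ z = z) (h3 : Z ≠ ⊤) (h4 : ∀ x ∉ Z, ∀ x' ∉ Z, ∃ n : ℕ, x'⁻¹ * (ψ ^ n) x ∈ Z) :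
    zpowers ψ ≠ ⊥ ∧ (Nat.card (zpowers ψ)).Coprime p ∧
      ∀ a b : T, a ∈ closure {y : T | ∃ φ ∈ zpowers ψ, ∃ t : T, y = φ t * t⁻¹} →
        b ∈ closure {y : T | ∃ φ ∈ zpowers ψ, ∃ t : T, y = φ t * t⁻¹} → a ≠ 1 → b ≠ 1 →
        ∃ φ ∈ zpowers ψ, φ a = b := by
  classical
  have hc : (Nat.card (zpowers ψ)).Coprime p := by
    rw [Nat.card_zpowers]; exact hm.coprime_dvd_left (orderOf_dvd_of_pow_eq_one h1)
  set C := closure {y : T | ∃ φ ∈ zpowers ψ, ∃ t : T, y = φ t * t⁻¹}
  haveI := Fintype.ofFinite (zpowers ψ)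
  let N : T →* T := ∏ φ : zpowers ψ, (φ.1 : T →* T)
  have hN : ∀ t, N t = ∏ φ : zpowers ψ, φ.1 t := fun t => MonoidHom.finsetProd_apply _ _ _
  have hC : C ≤ N.ker := (closure_le _).2 (by
    rintro _ ⟨φ, hφ, t, rfl⟩
    rw [SetLike.mem_coe, MonoidHom.mem_ker, map_mul, map_inv, mul_inv_eq_one, hN, hN]
    exact Fintype.prod_equiv (Equiv.mulRight ⟨φ, hφ⟩) _ _ fun _ => rfl)
  have hCZ : ∀ z ∈ C, z ∈ Z → z = 1 := fun z hz hz' => by
    have h5 := hC hz
    rw [MonoidHom.mem_ker, hN, Finset.prod_congr rfl fun φ _ => show φ.1 z = z from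
      zpowers_le.2 (show ψ ∈ MulAction.stabilizer (MulAut T) z from h2 z hz') φ.2,
      Finset.prod_const, Finset.card_univ, ← Nat.card_eq_fintype_card] at h5
    obtain ⟨k, hk⟩ := hT z
    have := pow_gcd_eq_one.2 ⟨h5, hk⟩
    rwa [(hc.pow_right k).gcd_eq_one, pow_one] at this
  refine ⟨fun e => ?_, hc, fun a b ha hb h5 h6 => ?_⟩
  · obtain ⟨x, -, hx⟩ := SetLike.exists_of_lt (lt_top_iff_ne_top.2 h3)
    obtain ⟨n, hn⟩ := h4 x hx x⁻¹ (mt Z.inv_mem_iff.1 hx)
    obtain ⟨k, hk⟩ := hT x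
    rw [zpowers_eq_bot.1 e] at hn
    exact hx (mem_of_sq_mem hp2 hk (by simpa [sq] using hn))
  · obtain ⟨n, hn⟩ := h4 a (fun h => h5 (hCZ a ha h)) b fun h => h6 (hCZ b hb h)
    refine ⟨ψ ^ n, npow_mem_zpowers ψ n, (inv_mul_eq_one.1 (hCZ _ (C.mul_mem (C.inv_mem hb) ?_) hn)).symm⟩
    simpa using C.mul_mem (subset_closure ⟨_, npow_mem_zpowers ψ n, a, rfl⟩) ha

open Equiv Cfsg.Fus Cfsg.FusionSystem in
open scoped IsMulCommutative in
theorem weaklyClosed_or_singer {Ω : Type*} [Group Ω] {S : Subgroup Ω} [Finite S] [Fact p.Prime]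
    {F : FusionSystem S} (hF : F.IsSaturated p) (hS : IsPGroup p S) (hp2 : p ≠ 2) {T : Subgroup Ω}
    (hT : T ≤ S ⊓ centralizer (S : Set Ω))
    (hN : ∀ σ, F.Iso (thompsonSubgroupAOf S) (thompsonSubgroupAOf S) σ → σ ∈ setStab T) :
    F.WeaklyClosed T ∨ ∃ X : Subgroup (MulAut T), X ≤ F.autGroup T ∧ X ≠ ⊥ ∧ IsCyclic X ∧
      (Nat.card X).Coprime p ∧
      ∀ a b : T, a ∈ closure {y : T | ∃ φ ∈ X, ∃ t : T, y = φ t * t⁻¹} →
        b ∈ closure {y : T | ∃ φ ∈ X, ∃ t : T, y = φ t * t⁻¹} → a ≠ 1 → b ≠ 1 →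
        ∃ φ ∈ X, φ a = b := by
  refine or_iff_not_imp_right.2 fun hX => ?_
  have hTS : T ≤ S := hT.trans inf_le_left
  haveI := finite_of_le hTS
  haveI : IsMulCommutative T := isMulCommutative_iff_le_centralizer.2
    ((hT.trans inf_le_right).trans (centralizer_le hTS))
  have hWV : ∀ R, F.IsCentric R → T ≤ thompsonSubgroupAOf R := fun R hR => by
    haveI := finite_of_le hR.le
    exact (le_inf (hT.trans (center_le_of_centric hR))
      ((hT.trans inf_le_right).trans (centralizer_le hR.le))).trans (center_le_thompsonA R)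
  refine weaklyClosed_iff.2 ⟨hTS, fun f hf => ?_⟩
  obtain ⟨σ, hσ, e⟩ := hf.exists_perm
  refine (template_K hF hS (fun R => thompsonSubgroupAOf R)
    (fun R _ => thompsonA_le R) (fun R σ hσ => by
      haveI := hσ.finite
      exact equivar_thompsonA.img (isPGroup_of_le hS hσ.le) hσ.homOn hσ.injOn)
    hT hWV (fixP_le_setStab T) le_rfl hN (fun Q hn hc h σ hσ => ?_) hσ).elim
    fun τ ⟨h1, h2, h3⟩ => (img_congr fun x hx => (h2 x hx).trans (e x hx)).symm.trans
      ((h1.homOn.mem_setStab_iff le_sup_right).1 h3)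
  have hN := F.isNormalizerSystem_normSys9 Q hn.le
  have hp := isPGroup_of_le hS (normalizerIn_le S Q)
  obtain ⟨G, _, _, P, θ, θ', hG, t, -⟩ := L.exists_model_transp hp
    (L.isConstrained_normalizerSystem hF hS hn hc hN)
  have hVQ : T ≤ Q := hT.trans (center_le_of_centric hc)
  have hQN := le_normalizerIn hn.le
  have hVW := hWV _ (hc.mono hQN (normalizerIn_le S Q))
  have hTN := hVQ.trans hQN
  have hC := (img_mono θ hT).trans (transp_img_center_le t.piso hn.le)
  have htop : normalizer ((img θ T : Subgroup G) : Set G) = ⊤ := by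
    by_contra hM
    obtain ⟨g, h1, ⟨m, h2, h3⟩, Z, h4, h5, h6⟩ := exists_sing hp2 P hG
      (le_centralizer_iff.1 (hC.trans inf_le_right)) (hC.trans inf_le_left) (fun g hg => by
        rw [← t.img_eq, ← equivar_thompsonA.img hp t.piso.hom t.piso.injOn] at hg
        obtain ⟨τ, h1, h2⟩ := transp_exists_iso t (thompsonA_le _) hg
        refine mem_normalizer_of_conj_mem fun y hy => ?_
        obtain ⟨v, hv, rfl⟩ := (t.piso.mem_img hTN).1 hy
        rw [← h2 v (hVW hv)]
        exact mem_img_of_mem θ ((h τ (hN.isSubsystemOf.iso h1) v).2 hv)) hM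
    obtain ⟨τ, h7, h8⟩ := transp_exists_iso t hTN h1
    have h9 := hN.isSubsystemOf.iso h7
    let j : T →* G := (t.piso.hom.mono hTN).toHom
    have hj : Function.Injective j := fun x y e => Subtype.ext (t.piso.injOn (hTN x.2) (hTN y.2) e)
    have hjT : ∀ x, j x ∈ img θ T := fun x => mem_img_of_mem θ x.2
    have e1 : ∀ (n : ℕ) x, j ((resAut T τ ^ n) x) = g ^ n * j x * (g ^ n)⁻¹ := fun n => by
      induction n with
      | zero => simp
      | succ n ih =>
        intro x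
        have e2 : j (resAut T τ x) = g * j x * g⁻¹ :=
          (congrArg θ (resAut_apply ⟨h9.isMap.homOn, h9.mem_setStab⟩ x)).trans (h8 x x.2)
        rw [pow_succ, MulAut.mul_apply, ih, e2, pow_succ]
        group
    obtain ⟨a1, a2, a3⟩ := sing_aut hp2 (isPGroup_of_le hS hTS) (resAut T τ) h2
      (MulEquiv.ext fun x => hj (by
        rw [e1, ← mem_centralizer_iff.1 h3 _ (hjT x), mul_inv_cancel_right]; rfl)) (Z.comap j)
      (fun z hz => hj (by simpa [h4 _ hz] using e1 1 z)) (fun e => h5 fun y hy => by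
        obtain ⟨v, hv, rfl⟩ := (t.piso.mem_img hTN).1 hy
        exact (e.ge (mem_top (⟨v, hv⟩ : T)) : j ⟨v, hv⟩ ∈ Z)) fun x hx x' hx' => by
          obtain ⟨n, hn⟩ := h6 _ (hjT x) _ (hjT x') hx hx'
          exact ⟨n, by rwa [mem_comap, map_mul, map_inv, e1]⟩
    exact hX ⟨_, zpowers_le.2 h9.resAut_mem, a1, inferInstance, a2, a3⟩
  obtain ⟨g, hg⟩ := transp_exists_conj t (H2.iso_normalizerSystem hN hσ).isMap
  refine mem_setStab_of_finite fun x hx => ?_
  rw [← t.piso.apply_mem_img hTN (hQN (hσ.mem (hVQ hx))), hg x (hVQ hx)]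
  exact (mem_normalizer_iff.1 (htop.ge (mem_top g)) _).1 (mem_img_of_mem θ hx)

end Cfsg.Agent.H1
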