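import Cfsg.Agent.H1.FusCls

/-!
The centre of a fusion system as a direct factor of `Z(S)`.
-/

set_option autoImplicit false

namespace Cfsg.Agent.H1

open Equiv Cfsg.Fus Cfsg.FusionSystem Cfsg.Agent.H8

/-- The relative trace splits the fixed points of `Γ` off the fixed points of a subgroup whose
index is invertible on the module. -/
theorem exists_compl_fixed {Γ A : Type*} [Group Γ] [CommGroup A] (φ : Γ →* MulAut A)
    (H : Subgroup Γ) [H.FiniteIndex] (hn : Function.Bijective fun a : A => a ^ H.index) :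
    ∃ K : Subgroup A, (∀ a ∈ K, ∀ h ∈ H, φ h a = a) ∧ (∀ a ∈ K, (∀ g, φ g a = a) → a = 1) ∧
      ∀ a, (∀ h ∈ H, φ h a = a) → ∃ b c, (∀ g, φ g b = b) ∧ c ∈ K ∧ a = b * c := by
  classical
  haveI := Fintype.ofFinite (Γ ⧸ H)
  let t : A →* A := ∏ q : Γ ⧸ H, (φ q.out).toMonoidHom
  have ht : ∀ a, t a = ∏ q : Γ ⧸ H, φ q.out a := fun a => by
    simp [t, MonoidHom.finsetProd_apply]
  have h1 : ∀ a, (∀ h ∈ H, φ h a = a) → ∀ g, φ g (t a) = t a := by
    intro a ha g
    rw [ht, map_prod]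
    refine Fintype.prod_equiv (MulAction.toPerm g) _ _ fun q => ?_
    obtain ⟨h, hh⟩ := QuotientGroup.mk_out_eq_mul H (g * q.out)
    have : (MulAction.toPerm g) q = ((g * q.out : Γ) : Γ ⧸ H) := by
      conv_lhs => rw [← QuotientGroup.out_eq' q]
      rfl
    rw [this, hh, map_mul, map_mul, MulAut.mul_apply, MulAut.mul_apply, ha h h.2]
  have h2 : ∀ b, (∀ g, φ g b = b) → t b = b ^ H.index := by
    intro b hb
    rw [ht, Finset.prod_congr rfl fun q _ => hb q.out, Finset.prod_const, Finset.card_univ,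
      Subgroup.index, Nat.card_eq_fintype_card]
  let X : Subgroup A := ⨅ h ∈ H, (φ h).toMonoidHom.eqLocus (MonoidHom.id A)
  have hX : ∀ a, a ∈ X ↔ ∀ h ∈ H, φ h a = a := fun a => by
    simp only [X, Subgroup.mem_iInf]; rfl
  refine ⟨X ⊓ t.ker, fun a ha => (hX a).1 ha.1, fun a ha hg => hn.1 ?_, fun a ha => ?_⟩
  · show a ^ H.index = 1 ^ H.index
    rw [← h2 a hg, one_pow]; exact ha.2
  · obtain ⟨b, hb⟩ := hn.2 (t a)
    have hb' : b ^ H.index = t a := hb
    have hbg : ∀ g, φ g b = b := fun g => hn.1 (by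
      show φ g b ^ H.index = b ^ H.index
      rw [← map_pow, hb', h1 a ha])
    refine ⟨b, b⁻¹ * a, hbg, ⟨(hX _).2 fun h hh => by rw [map_mul, map_inv, hbg, ha h hh], ?_⟩,
      by rw [mul_inv_cancel_left]⟩
    show t (b⁻¹ * a) = 1
    rw [map_mul, map_inv, h2 b hbg, hb', inv_mul_cancel]

variable {Ω : Type*} [Group Ω] {S : Subgroup Ω} {F : FusionSystem S} {p : ℕ} {Q : Subgroup Ω}

theorem IsNormal.mem_center_iff [Finite S] (hQ : F.IsNormal Q) {z : Ω} (hz : z ∈ Q) :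
    z ∈ F.center ↔ ∀ σ, F.Iso Q Q σ → σ z = z := by
  refine ⟨fun h σ hσ => F.isCentral_center9.apply_eq hσ.isMap hz h, fun h => ?_⟩
  have : F.IsCentral (Subgroup.zpowers z) := by
    have hzQ := Subgroup.zpowers_le.2 hz
    refine isCentral_of_perm (hzQ.trans hQ.le) fun P σ hσ => ?_
    obtain ⟨τ, h1, h2, h3⟩ := hQ.exists_ext hσ
    refine ⟨τ, h1.mono (sup_le_sup_left hzQ P), h2, ?_⟩
    rintro _ ⟨n, rfl⟩
    have h4 := (h1.mono le_sup_right).iso_of_setStab h3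
    show τ (z ^ n) = z ^ n
    rw [h4.homOn.map_zpow hz, h τ h4]
  exact this.le_center (Subgroup.mem_zpowers z)

open scoped IsMulCommutative in
theorem exists_compl_center [Fact p.Prime] [Finite S] (hF : F.IsSaturated p) (hS : IsPGroup p S)
    (hQ : F.IsNormal Q) (hZ : zc S ≤ Q) :
    ∃ K : Subgroup Ω, K ≤ zc S ∧ F.center ⊓ K = ⊥ ∧ F.center ⊔ K = zc S := by
  have hle : F.stab Q ≤ autStab (zc Q) := fun σ hσ =>
    have h := (mem_stab hQ.le).1 hσ
    ((h.isMap.mono inf_le_left).iso_of_img (img_zc h)).mem_autStab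
  let φ : F.stab Q →* MulAut (zc Q) := (resHom (zc Q)).comp (Subgroup.inclusion hle)
  have hφ : ∀ (g : F.stab Q) (a : zc Q), φ g a = a ↔ (g : Perm Ω) a = a := fun g a =>
    Subtype.ext_iff
  have ha := hQ.stronglyClosed.isFullyNormalized.isFullyAutomized hF hS
  have hnd := (((F.finMod_stab hQ.le).sylMod_iff_not_dvd
    (inf_le_left.trans (fixP_le_innS S Q))).1 ha.sylMod).2.2
  haveI : ((innS S Q).subgroupOf (F.stab Q)).FiniteIndex :=
    ⟨fun h => hnd (by rw [Subgroup.relIndex, h]; exact dvd_zero p)⟩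
  haveI : Finite (zc Q) := finite_of_le (inf_le_left.trans hQ.le)
  have hzp : IsPGroup p (zc Q) := isPGroup_of_le hS (inf_le_left.trans hQ.le)
  obtain ⟨K, h1, h2, h3⟩ := exists_compl_fixed φ ((innS S Q).subgroupOf (F.stab Q))
    (hzp.powEquiv ((Nat.Prime.coprime_iff_not_dvd Fact.out).2 hnd)).bijective
  have hc : F.center ≤ zc S := le_inf F.center_le F.isCentral_center9.le_centralizer
  have hfix : ∀ a : zc Q, (∀ g, φ g a = a) ↔ (a : Ω) ∈ F.center := fun a => by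
    rw [IsNormal.mem_center_iff hQ a.2.1]
    exact ⟨fun h σ hσ => (hφ ⟨σ, hσ.mem_stab⟩ a).1 (h _),
      fun h g => (hφ g a).2 (h _ ((mem_stab hQ.le).1 g.2))⟩
  have hK : K.map (zc Q).subtype ≤ zc S := by
    rintro _ ⟨a, haK, rfl⟩
    refine ⟨hQ.le a.2.1, fun s hs => ?_⟩
    have hs' := cj_mem_innS hs (hQ.le_normalizer hs)
    have := (hφ ⟨cj s, F.innS_le_stab hQ.le hs'⟩ a).1 (h1 a haK _ hs')
    exact mul_inv_eq_iff_eq_mul.1 this
  refine ⟨K.map (zc Q).subtype, hK, eq_bot_iff.2 ?_, le_antisymm (sup_le hc hK) fun z hz => ?_⟩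
  · rintro _ ⟨hz, a, haK, rfl⟩
    exact congrArg Subtype.val (h2 a haK ((hfix a).2 hz))
  · obtain ⟨b, c, hb, hcK, he⟩ := h3 ⟨z, hZ hz, fun y hy => hz.2 y (hQ.le hy)⟩ fun h hh => by
      obtain ⟨s, hs, -, he⟩ := mem_innS.1 (Subgroup.mem_subgroupOf.1 hh)
      refine (hφ _ _).2 ?_
      rw [he z (hZ hz), hz.2 s hs, mul_inv_cancel_right]
    have : z = b * c := congrArg Subtype.val he
    rw [this]
    exact Subgroup.mul_mem_sup ((hfix b).1 hb) ⟨c, hcK, rfl⟩

end Cfsg.Agent.H1
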