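import Mathlib

/-!
# Finite special Jordan division algebras of odd characteristic are fields
-/

set_option autoImplicit false

namespace Cfsg.Agent.H1

open Polynomial

section Deg

variable {k σ N : Type*} [Field k] [Fintype N] [DecidableEq N]

theorem totalDegree_det_le (M : Matrix N N (MvPolynomial σ k))
    (h : ∀ i j, (M i j).totalDegree ≤ 1) : M.det.totalDegree ≤ Fintype.card N := by
  rw [Matrix.det_apply']
  refine MvPolynomial.totalDegree_finsetSum_le fun s _ => (MvPolynomial.totalDegree_mul _ _).trans ?_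
  have h1 : (((Equiv.Perm.sign s : ℤ) : MvPolynomial σ k)).totalDegree = 0 := by
    rw [← map_intCast (MvPolynomial.C : k →+* MvPolynomial σ k), MvPolynomial.totalDegree_C]
  rw [h1, zero_add]
  refine (MvPolynomial.totalDegree_finsetProd _ _).trans ((Finset.sum_le_sum fun i _ => h _ _).trans ?_)
  simp

theorem totalDegree_coeff_le_of_dvd_charpoly (M : Matrix N N (MvPolynomial σ k))
    (h : ∀ i j, (M i j).totalDegree ≤ 1) {μ : (MvPolynomial σ k)[X]} (hμ : μ.Monic)
    (hd : μ ∣ M.charpoly) : (μ.coeff 0).totalDegree ≤ μ.natDegree := by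
  classical
  obtain ⟨ν, hν⟩ := hd
  set e := MvPolynomial.optionEquivLeft k σ
  have hC : ∀ f : MvPolynomial σ k, (e.symm (C f)).totalDegree ≤ f.totalDegree := fun f => by
    have : e.symm (C f) = MvPolynomial.rename some f := by
      simp [e, MvPolynomial.optionEquivLeft_symm_apply]
    rw [this]
    exact MvPolynomial.totalDegree_rename_le _ _
  have h1 : (e.symm M.charpoly).totalDegree ≤ Fintype.card N := by
    rw [Matrix.charpoly, AlgEquiv.map_det]
    refine totalDegree_det_le _ fun i j => ?_
    simp only [AlgEquiv.mapMatrix_apply, Matrix.map_apply, Matrix.charmatrix_apply, map_sub]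
    refine (MvPolynomial.totalDegree_sub _ _).trans (max_le ?_ ((hC _).trans (h i j)))
    by_cases hij : i = j
    · subst hij
      simp [e]
    · simp [Matrix.diagonal_apply_ne _ hij]
  have h2 : ∀ f : (MvPolynomial σ k)[X], f.natDegree ≤ (e.symm f).totalDegree := fun f => by
    conv_lhs => rw [← e.apply_symm_apply f]
    rw [MvPolynomial.natDegree_optionEquivLeft]
    exact MvPolynomial.degreeOf_le_totalDegree _ _
  have hν0 : ν ≠ 0 := fun h0 => M.charpoly_monic.ne_zero (by rw [hν, h0, mul_zero])
  have h3 := M.charpoly_natDegree_eq_dim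
  rw [hν, hμ.natDegree_mul' hν0] at h3
  rw [hν, map_mul, MvPolynomial.totalDegree_mul_of_isDomain (by simpa using hμ.ne_zero)
    (by simpa using hν0)] at h1
  have h4 := MvPolynomial.totalDegree_coeff_optionEquivLeft_le k σ (e.symm μ) 0
  rw [e.apply_symm_apply] at h4
  have := h2 ν
  omega

end Deg

/-- A finite special Jordan division algebra of odd characteristic is commutative. -/
theorem jordan_comm {k N : Type*} [Field k] [Fintype k] [Fintype N] [DecidableEq N] [Nonempty N]
    (h2 : (2 : k) ≠ 0) (J : Submodule k (Matrix N N k)) (h1 : (1 : Matrix N N k) ∈ J)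
    (hsq : ∀ a ∈ J, a * a ∈ J) (hdet : ∀ a ∈ J, a.det = 0 → a = 0) {a b : Matrix N N k}
    (ha : a ∈ J) (hb : b ∈ J) : a * b = b * a := by
  classical
  set n := Module.finrank k J
  let B := Module.finBasis k J
  let R := MvPolynomial (Fin n) k
  let K := FractionRing R
  let M : Matrix N N R := ∑ i, (MvPolynomial.X i : R) • (B i : Matrix N N k).map MvPolynomial.C
  let ι : Matrix N N R →+* Matrix N N K := (algebraMap R K).mapMatrix
  let φ : Matrix N N k →+* Matrix N N K := (algebraMap k K).mapMatrix
  have hι : Function.Injective ι := Matrix.map_injective (IsFractionRing.injective R K)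
  have hφ : Function.Injective φ := Matrix.map_injective (algebraMap k K).injective
  let JK : Submodule K (Matrix N N K) := Submodule.span K (Set.range fun i => φ (B i))
  have hφs : ∀ (c : k) (x : Matrix N N k), φ (c • x) = algebraMap k K c • φ x := fun c x => by
    ext i j; simp [φ]
  have hJ : ∀ x ∈ J, φ x ∈ JK := fun x hx => by
    have := congrArg Subtype.val (B.sum_repr ⟨x, hx⟩)
    simp only [AddSubmonoidClass.coe_finsetSum, SetLike.val_smul] at this
    rw [← this, map_sum]
    exact JK.sum_mem fun i _ => hφs _ _ ▸ JK.smul_mem _ (Submodule.subset_span ⟨i, rfl⟩)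
  have hjor : ∀ u ∈ JK, ∀ v ∈ JK, u * v + v * u ∈ JK := fun u hu v hv => by
    induction hu, hv using Submodule.span_induction₂ with
    | mem_mem x y hx hy =>
      obtain ⟨i, rfl⟩ := hx
      obtain ⟨j, rfl⟩ := hy
      have := J.sub_mem (J.sub_mem (hsq _ (J.add_mem (B i).2 (B j).2)) (hsq _ (B i).2))
        (hsq _ (B j).2)
      rw [← map_mul, ← map_mul, ← map_add]
      convert hJ _ this using 2
      noncomm_ring
    | zero_left => simp
    | zero_right => simp
    | add_left x y z _ _ _ h3 h4 => convert JK.add_mem h3 h4 using 1; noncomm_ring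
    | add_right x y z _ _ _ h3 h4 => convert JK.add_mem h3 h4 using 1; noncomm_ring
    | smul_left r x y _ _ h3 => simpa using JK.smul_mem r h3
    | smul_right r x y _ _ h3 => simpa using JK.smul_mem r h3
  have hM : ι M ∈ JK := by
    rw [map_sum]
    refine JK.sum_mem fun i _ => ?_
    have : ι ((MvPolynomial.X i : R) • (B i : Matrix N N k).map MvPolynomial.C) =
        algebraMap R K (MvPolynomial.X i) • φ (B i) := by
      ext s t
      simp [ι, φ, IsScalarTower.algebraMap_apply k R K, R]
    exact this ▸ JK.smul_mem _ (Submodule.subset_span ⟨i, rfl⟩)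
  have h2K : (2 : K) ≠ 0 := fun h => h2 ((algebraMap k K).injective (by rw [map_ofNat, h, map_zero]))
  have hpow : ∀ j : ℕ, ι M ^ j ∈ JK := fun j => by
    induction j with
    | zero => simpa using hJ 1 h1
    | succ j ih =>
      have := JK.smul_mem (2 : K)⁻¹ (hjor _ ih _ hM)
      rwa [← pow_succ, ← pow_succ', ← two_smul K, smul_smul, inv_mul_cancel₀ h2K, one_smul] at this
  have hint : IsIntegral K (ι M) := Algebra.IsIntegral.isIntegral _
  have hdvd : minpoly K (ι M) ∣ M.charpoly.map (algebraMap R K) := by
    rw [← Matrix.charpoly_map]; exact Matrix.minpoly_dvd_charpoly _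
  obtain ⟨μ, hμ⟩ := IsIntegrallyClosed.eq_map_mul_C_of_dvd K M.charpoly_monic hdvd
  rw [(minpoly.monic hint).leadingCoeff, C_1, mul_one] at hμ
  have hinj := IsFractionRing.injective R K
  have hmon : μ.Monic := monic_of_injective hinj (hμ ▸ minpoly.monic hint)
  have hd : μ ∣ M.charpoly := (map_dvd_map _ hinj hmon).1 (hμ ▸ hdvd)
  have hdeg : μ.natDegree = (minpoly K (ι M)).natDegree := by
    rw [← hμ, natDegree_map_eq_of_injective hinj]
  have hev : ∀ x : Fin n → k, (MvPolynomial.eval x).mapMatrix M = ∑ i, x i • (B i : Matrix N N k) :=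
    fun x => by
      rw [map_sum]
      refine Finset.sum_congr rfl fun i _ => ?_
      ext s t
      simp
  have hcw : n ≤ μ.natDegree := by
    by_contra hlt
    obtain ⟨p, hp⟩ := CharP.exists k
    have h3 := char_dvd_card_solutions p (f := μ.coeff 0) (by
      refine (totalDegree_coeff_le_of_dvd_charpoly M (fun s t => ?_) hmon hd).trans_lt (by
        simpa using hlt)
      simp only [M, Matrix.sum_apply, Matrix.smul_apply, Matrix.map_apply, smul_eq_mul]
      exact MvPolynomial.totalDegree_finsetSum_le fun i _ =>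
        (MvPolynomial.totalDegree_mul _ _).trans (by simp))
    have h4 : Fintype.card {x : Fin n → k // MvPolynomial.eval x (μ.coeff 0) = 0} = 1 := by
      rw [Fintype.card_eq_one_iff]
      refine ⟨⟨0, ?_⟩, fun ⟨x, hx⟩ => Subtype.ext ?_⟩
      · have h5 : μ.eval₂ (algebraMap R (Matrix N N R)) M = 0 := by
          apply hι
          rw [hom_eval₂, map_zero, ← minpoly.aeval K (ι M), ← hμ, aeval_def, eval₂_map]
          congr 1
          refine RingHom.ext fun r => Matrix.ext fun s t => ?_
          by_cases hst : s = t <;> simp [ι, Matrix.algebraMap_matrix_apply, hst]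
        have h6 := congrArg (MvPolynomial.eval (0 : Fin n → k)).mapMatrix h5
        rw [hom_eval₂, hev, map_zero] at h6
        simp only [Pi.zero_apply, zero_smul, Finset.sum_const_zero, eval₂_at_zero] at h6
        obtain ⟨s⟩ := ‹Nonempty N›
        simpa [Matrix.algebraMap_matrix_apply] using congrFun (congrFun h6 s) s
      · obtain ⟨ν, hν⟩ := hd
        have h5 : (∑ i, x i • (B i : Matrix N N k)).det = 0 := by
          rw [← hev, ← RingHom.map_det, Matrix.det_eq_sign_charpoly_coeff, hν, mul_coeff_zero,
            map_mul, map_mul, hx, zero_mul, mul_zero]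
        have h6 := hdet _ (J.sum_mem fun i _ => J.smul_mem _ (B i).2) h5
        funext i
        refine Fintype.linearIndependent_iff.1 B.linearIndependent x (Subtype.ext ?_) i
        simpa using h6
    rw [h4, Nat.dvd_one] at h3
    exact CharP.char_ne_one k p h3
  have hW : Submodule.span K (Set.range fun i : Fin (minpoly K (ι M)).natDegree => ι M ^ (i : ℕ)) =
      JK := by
    refine Submodule.eq_of_le_of_finrank_le (Submodule.span_le.2 ?_) ?_
    · rintro _ ⟨i, rfl⟩; exact hpow i
    · rw [finrank_span_eq_card (linearIndependent_pow (ι M)), Fintype.card_fin, ← hdeg]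
      exact (finrank_range_le_card _).trans (by simpa using hcw)
  have hle : JK ≤ Subalgebra.toSubmodule (Algebra.adjoin K {ι M}) := by
    rw [← hW, Submodule.span_le]
    rintro _ ⟨i, rfl⟩
    exact Subalgebra.pow_mem _ (Algebra.self_mem_adjoin_singleton K _) _
  apply hφ
  rw [map_mul, map_mul]
  exact (Algebra.commute_of_mem_adjoin_singleton_of_commute (hle (hJ b hb))
    (Algebra.commute_of_mem_adjoin_self (hle (hJ a ha))).symm).eq

/-- A finite special Jordan division ring of odd characteristic has a primitive element. -/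
theorem jordan_cyclic {W : Type*} [AddCommGroup W] [Finite W] [Nontrivial W] {p : ℕ}
    [hp : Fact p.Prime] [Module (ZMod p) W] (hp2 : p ≠ 2) (J : AddSubgroup (AddMonoid.End W))
    (h1 : 1 ∈ J) (hsq : ∀ a ∈ J, a * a ∈ J) (hinj : ∀ a ∈ J, ∀ w, a w = 0 → a = 0 ∨ w = 0) :
    ∃ γ ∈ J, ∀ a ∈ J, a ≠ 0 → ∃ n : ℕ, γ ^ n = a := by
  classical
  have hW : ∀ w : W, p • w = 0 := fun w => by
    rw [← Nat.cast_smul_eq_nsmul (ZMod p), ZMod.natCast_self, zero_smul]
  haveI : Module.Finite (ZMod p) W := Module.Finite.of_finite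
  let B := Module.finBasis (ZMod p) W
  haveI : Nonempty (Fin (Module.finrank (ZMod p) W)) := ⟨⟨0, Module.finrank_pos⟩⟩
  have h2 : (2 : ZMod p) ≠ 0 := fun h => hp2 ((Nat.prime_dvd_prime_iff_eq hp.out Nat.prime_two).1
    ((ZMod.natCast_eq_zero_iff 2 p).1 (by exact_mod_cast h)))
  let e := LinearMap.toMatrixAlgEquiv B
  let f : Module.End (ZMod p) W →+* AddMonoid.End W :=
    { toFun := fun a => a.toAddMonoidHom
      map_one' := rfl
      map_mul' := fun _ _ => rfl
      map_zero' := rfl
      map_add' := fun _ _ => rfl }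
  have hf : Function.Injective f := fun a b h => LinearMap.ext fun w => DFunLike.congr_fun h w
  have hs : Function.Surjective f := fun a => ⟨AddMonoidHom.toZModLinearMap p a, rfl⟩
  let g : Matrix _ _ (ZMod p) →+* AddMonoid.End W := f.comp e.symm.toRingEquiv.toRingHom
  have hg : Function.Injective g := hf.comp e.symm.injective
  have hgs : Function.Surjective g := hs.comp e.symm.surjective
  have hc : ∀ a ∈ J, ∀ b ∈ J, a * b = b * a := fun a ha b hb => by
    obtain ⟨a, rfl⟩ := hgs a
    obtain ⟨b, rfl⟩ := hgs b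
    rw [← map_mul, ← map_mul, jordan_comm h2 (AddSubgroup.toZModSubmodule p
      (J.comap g.toAddMonoidHom)) (by simpa using h1) (fun a ha => by simpa using hsq _ ha)
      (fun c hc hd => ?_) ha hb]
    obtain ⟨v, hv, h0⟩ := Matrix.exists_mulVec_eq_zero_iff.2 hd
    rcases hinj _ hc (B.equivFun.symm v) (by
      change Matrix.toLinAlgEquiv B c (B.equivFun.symm v) = 0
      rw [Matrix.toLinAlgEquiv_apply, show ⇑(B.repr (B.equivFun.symm v)) = v from
        B.equivFun.apply_symm_apply v, h0]
      simp) with h | h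
    · exact hg (h.trans g.map_zero.symm)
    · exact absurd (B.equivFun.symm.injective (h.trans (map_zero _).symm)) hv
  obtain ⟨m, hm⟩ := hp.out.odd_of_ne_two hp2
  let R : Subring (AddMonoid.End W) :=
    { J with
      one_mem' := h1
      mul_mem' := fun {a b} ha hb => by
        have h3 : (2 : ℕ) • (a * b) ∈ J := by
          convert J.sub_mem (J.sub_mem (hsq _ (J.add_mem ha hb)) (hsq _ ha)) (hsq _ hb) using 1
          rw [two_smul]
          nth_rewrite 2 [hc a ha b hb]
          noncomm_ring
        have h4 : p • (a * b) = 0 := AddMonoidHom.ext fun w => hW _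
        have := J.neg_mem (J.nsmul_mem h3 m)
        rw [hm, add_smul, one_smul, mul_comm, mul_smul] at h4
        rwa [neg_eq_of_add_eq_zero_right h4] at this }
  letI : CommRing R := { R.toRing with mul_comm := fun a b => Subtype.ext (hc _ a.2 _ b.2) }
  haveI : Nontrivial (AddMonoid.End W) := hg.nontrivial
  haveI : NoZeroDivisors R := ⟨fun {a b} h => by
    by_cases ha : a = 0
    · exact Or.inl ha
    · refine Or.inr (Subtype.ext (AddMonoidHom.ext fun w => ?_))
      exact (hinj _ a.2 (b.1 w) (DFunLike.congr_fun (congrArg Subtype.val h) w)).resolve_left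
        fun h0 => ha (Subtype.ext h0)⟩
  haveI : IsDomain R := NoZeroDivisors.to_isDomain R
  haveI : Finite (AddMonoid.End W) := Finite.of_injective _ DFunLike.coe_injective
  obtain ⟨γ, hγ⟩ := IsCyclic.exists_monoid_generator (α := Rˣ)
  refine ⟨(γ : R), (γ : R).2, fun a ha h0 => ?_⟩
  obtain ⟨c, hc'⟩ := (Finite.isField_of_domain R).mul_inv_cancel (a := ⟨a, ha⟩)
    fun h => h0 (congrArg Subtype.val h)
  obtain ⟨u, hu⟩ := IsUnit.of_mul_eq_one _ hc'
  obtain ⟨n, hn⟩ := hγ u
  exact ⟨n, by simpa [hu] using congrArg (fun x : Rˣ => ((x : R) : AddMonoid.End W)) hn⟩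

end Cfsg.Agent.H1
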