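import Cfsg.Agent.H1.JordDiv
import Cfsg.Agent.H1.AutEnd
import Cfsg.Agent.H1.StabM

/-!
# Two full elation groups: a cyclic group transitive on an axis
-/

set_option autoImplicit false

namespace Cfsg.Agent.H1

open Subgroup
open scoped commutatorElement

section Abs

variable {Γ W : Type*} [Group Γ] [AddCommGroup W] {ρ : Γ →* AddMonoid.End W} {A B : Subgroup Γ}
  {X Y : AddSubgroup W}

/-- `A` is a full group of elations with axis `X`. -/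
structure Elat (ρ : Γ →* AddMonoid.End W) (A : Subgroup Γ) (X Y : AddSubgroup W) : Prop where
  disj : ∀ w ∈ X, w ∈ Y → w = 0
  sup : ∀ w, ∃ x ∈ X, ∃ y ∈ Y, w = x + y
  fix : ∀ a ∈ A, ∀ x ∈ X, ρ a x = x
  mem : ∀ a ∈ A, ∀ w, ρ a w - w ∈ X
  surj : ∀ y ∈ Y, y ≠ 0 → ∀ x ∈ X, ∃ a ∈ A, ρ a y - y = x
  same : ∀ l, ∀ y ∈ Y, y ≠ 0 → ρ l y ∈ Y → ∀ y' ∈ Y, ρ l y' ∈ Y
  swap : ∀ l, ∀ y ∈ Y, y ≠ 0 → ρ l y ∈ X → ∀ y' ∈ Y, ρ l y' ∈ X
  ne : ∃ y ∈ Y, y ≠ 0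

theorem Elat.ext (h : Elat ρ A X Y) {f g : AddMonoid.End W} (h1 : ∀ x ∈ X, f x = g x)
    (h2 : ∀ y ∈ Y, f y = g y) : f = g := AddMonoidHom.ext fun w => by
  obtain ⟨x, hx, y, hy, rfl⟩ := h.sup w
  exact (map_add f x y).trans (by rw [h1 x hx, h2 y hy]; exact (map_add g x y).symm)

theorem Elat.zero (h : Elat ρ A X Y) {a : Γ} (ha : a ∈ A) {x : W} (hx : x ∈ X) :
    (ρ a - 1) x = 0 := sub_eq_zero.2 (h.fix a ha x hx)

theorem Elat.mul (h : Elat ρ A X Y) {a a' : Γ} (ha : a ∈ A) (ha' : a' ∈ A) :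
    (ρ a - 1) * (ρ a' - 1) = 0 := AddMonoidHom.ext fun w => h.zero ha (h.mem a' ha' w)

theorem Elat.eq_of_fix (h : Elat ρ A X Y) {d : Γ} (h1 : ∀ x ∈ X, ρ d x = x)
    (h2 : ∀ y ∈ Y, ρ d y - y ∈ X) {y : W} (hy : y ∈ Y) (h0 : y ≠ 0) (h3 : ρ d y = y) : ρ d = 1 :=
  h.ext h1 fun y' hy' => sub_eq_zero.1
    (h.disj _ (h2 y' hy') (Y.sub_mem (h.same d y hy h0 (h3.symm ▸ hy) y' hy') hy'))

theorem Elat.inj (h : Elat ρ A X Y) {a : Γ} (ha : a ∈ A) (h0 : ρ a - 1 ≠ 0) {y : W} (hy : y ∈ Y)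
    (h1 : (ρ a - 1) y = 0) : y = 0 := by
  by_contra hc
  exact h0 (sub_eq_zero.2
    (h.eq_of_fix (h.fix a ha) (fun y _ => h.mem a ha y) hy hc (sub_eq_zero.1 h1)))

theorem Elat.exists_inv (h : Elat ρ A X Y) (h' : Elat ρ B Y X) {a : Γ} (ha : a ∈ A)
    (h0 : ρ a - 1 ≠ 0) : ∃ b ∈ B, (ρ a - 1) * (ρ b - 1) + (ρ b - 1) * (ρ a - 1) = -1 := by
  obtain ⟨y, hy, hy0⟩ := h.ne
  obtain ⟨b, hb, e⟩ := h'.surj _ (h.mem a ha y) (fun e => hy0 (h.inj ha h0 hy e)) _ (Y.neg_mem hy)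
  have e1 : ∀ y ∈ Y, ρ (b * a) y = (ρ a - 1) y + (y + (ρ b - 1) ((ρ a - 1) y)) := fun y hy => by
    change _ = ρ a y - y + (y + (ρ b (ρ a y - y) - (ρ a y - y)))
    rw [map_mul, map_sub, h'.fix b hb y hy]
    change ρ b (ρ a y) = _
    abel
  have e2 : ∀ y' ∈ Y, (ρ b - 1) ((ρ a - 1) y') = -y' := fun y' hy' => by
    have h1 := h.swap (b * a) y hy hy0 (by
      rw [e1 y hy]
      exact X.add_mem (h.mem a ha y) (by
        rw [show (ρ b - 1) ((ρ a - 1) y) = -y from e, add_neg_cancel]; exact X.zero_mem)) y' hy'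
    rw [e1 y' hy', X.add_mem_cancel_left (show (ρ a - 1) y' ∈ X from h.mem a ha y')] at h1
    exact eq_neg_of_add_eq_zero_right (h.disj _ h1 (Y.add_mem hy' (h'.mem b hb _)))
  have hb0 : ρ b - 1 ≠ 0 := fun e0 => hy0 (by simpa [e0] using e2 y hy)
  refine ⟨b, hb, h.ext (fun x hx => ?_) fun y hy => ?_⟩
  · have h1 := h'.inj hb hb0 (X.add_mem (h.mem a ha ((ρ b - 1) x)) hx) (by
      rw [map_add]
      exact (congrArg (· + _) (e2 _ (h'.mem b hb x))).trans (neg_add_cancel _))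
    change (ρ a - 1) ((ρ b - 1) x) + (ρ b - 1) ((ρ a - 1) x) = -x
    rw [h.zero ha hx, map_zero, add_zero]
    exact eq_neg_of_add_eq_zero_left h1
  · change (ρ a - 1) ((ρ b - 1) y) + (ρ b - 1) ((ρ a - 1) y) = -y
    rw [h'.zero hb hy, map_zero, zero_add, e2 y hy]

theorem Elat.weyl (h : Elat ρ A X Y) {a b : Γ} (ha : a ∈ A)
    (e : (ρ a - 1) * (ρ b - 1) + (ρ b - 1) * (ρ a - 1) = -1) :
    ρ (a * b * a) = (ρ a - 1) + (ρ b - 1) := by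
  have h1 := h.mul ha ha
  rw [map_mul, map_mul, ← sub_add_cancel (ρ a) 1, ← sub_add_cancel (ρ b) 1, add_sub_cancel_right,
    add_sub_cancel_right]
  generalize ρ a - 1 = α at *
  generalize ρ b - 1 = β at *
  have h2 : α * β * α = -α := by
    have := congrArg (α * ·) e
    simpa [mul_add, ← mul_assoc, h1] using this
  calc (α + 1) * (β + 1) * (α + 1) = α * β * α + (α * β + β * α) + α * α + α + α + β + 1 := by
        noncomm_ring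
    _ = α + β := by rw [h1, h2, e]; abel

theorem Elat.jordan (h : Elat ρ A X Y) (h' : Elat ρ B Y X) {a b' : Γ} (ha : a ∈ A)
    (hb' : b' ∈ B) : ∃ a' ∈ A, ρ a' - 1 = -((ρ a - 1) * (ρ b' - 1) * (ρ a - 1)) := by
  by_cases h0 : ρ a - 1 = 0
  · exact ⟨1, A.one_mem, by simp [h0]⟩
  obtain ⟨b, hb, e⟩ := h.exists_inv h' ha h0
  have hw := h.weyl ha e
  have h1 := h.mul ha ha
  have h2 := h'.mul hb hb
  have h3 := h'.mul hb hb'
  have h4 := h'.mul hb' hb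
  set n := -((ρ a - 1) * (ρ b' - 1) * (ρ a - 1)) with hn
  have hc : ρ (a * b * a * b' * (a * b * a)⁻¹) = 1 + n := by
    have h5 : ρ (a * b * a * b') = (1 + n) * ρ (a * b * a) := by
      rw [map_mul, hw, hn, ← sub_add_cancel (ρ b') 1, add_sub_cancel_right]
      generalize ρ a - 1 = α at *
      generalize ρ b - 1 = β at *
      generalize ρ b' - 1 = β' at *
      have h6 : β' * α * β = -β' := by
        have := congrArg (β' * ·) e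
        simpa [mul_add, ← mul_assoc, h4] using this
      calc (α + β) * (β' + 1) = α + β + α * β' + β * β' := by noncomm_ring
        _ = α + β - α * (β' * α * β) - α * β' * (α * α) := by rw [h1, h3, h6]; noncomm_ring
        _ = _ := by noncomm_ring
    rw [map_mul, h5, mul_assoc, ← map_mul, mul_inv_cancel, map_one, mul_one]
  have hnX : ∀ w, n w ∈ X := fun w => X.neg_mem (h.mem a ha _)
  have hn0 : ∀ x ∈ X, n x = 0 := fun x hx => by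
    change -((ρ a - 1) ((ρ b' - 1) ((ρ a - 1) x))) = 0
    rw [h.zero ha hx, map_zero, map_zero, neg_zero]
  obtain ⟨y, hy, hy0⟩ := h.ne
  obtain ⟨a', ha', e'⟩ := h.surj y hy hy0 _ (hnX y)
  have h6 : ∀ w, ρ (a'⁻¹ * (a * b * a * b' * (a * b * a)⁻¹)) w = ρ a'⁻¹ w + n w := fun w => by
    rw [map_mul, hc]
    change ρ a'⁻¹ (w + n w) = _
    rw [map_add, h.fix _ (A.inv_mem ha') _ (hnX w)]
  have h7 := h.eq_of_fix (d := a'⁻¹ * (a * b * a * b' * (a * b * a)⁻¹))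
    (fun x hx => by rw [h6, hn0 x hx, add_zero, h.fix _ (A.inv_mem ha') x hx])
    (fun y _ => by
      rw [h6, add_sub_right_comm]; exact X.add_mem (h.mem _ (A.inv_mem ha') y) (hnX y)) hy hy0 (by
      rw [map_mul, hc]
      change ρ a'⁻¹ (y + n y) = y
      rw [← e', add_sub_cancel]
      change (ρ a'⁻¹ * ρ a') y = y
      rw [← map_mul, inv_mul_cancel, map_one]
      rfl)
  refine ⟨a', ha', ?_⟩
  rw [sub_eq_iff_eq_add', ← hc, ← mul_one (ρ a'), ← h7, ← map_mul, mul_inv_cancel_left]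

theorem Elat.exists_singer [Finite W] {p : ℕ} [hp : Fact p.Prime] (hp2 : p ≠ 2)
    (hW : ∀ w : W, ∃ k : ℕ, p ^ k • w = 0) (h : Elat ρ A X Y) (h' : Elat ρ B Y X) :
    ∃ g, (∀ x ∈ X, ρ g x ∈ X) ∧ ∀ x ∈ X, ∀ x' ∈ X, x ≠ 0 → x' ≠ 0 → ∃ n : ℕ, ρ (g ^ n) x = x' := by
  have key : ∀ {A X Y}, Elat ρ A X Y → ∀ x ∈ X, p • x = 0 := fun {A X Y} h x hx => by
    obtain ⟨y, hy, hy0⟩ := h.ne
    obtain ⟨k, hk⟩ := hW y
    obtain ⟨y, hy, hy0, hy1⟩ : ∃ y ∈ Y, y ≠ 0 ∧ p • y = 0 := by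
      induction k with
      | zero => exact absurd (by simpa using hk) hy0
      | succ k ih =>
        by_cases e : p ^ k • y = 0
        · exact ih e
        · exact ⟨_, Y.nsmul_mem hy _, e, by rw [← mul_smul, ← pow_succ', hk]⟩
    obtain ⟨a, -, rfl⟩ := h.surj y hy hy0 x hx
    rw [smul_sub, ← map_nsmul, hy1, map_zero, sub_zero]
  letI : Module (ZMod p) W := AddCommGroup.zmodModule fun w => by
    obtain ⟨x, hx, y, hy, rfl⟩ := h.sup w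
    rw [smul_add, key h x hx, key h' y hy, add_zero]
  obtain ⟨y, hy, hy0⟩ := h.ne
  obtain ⟨x₀, hx₀, hx0⟩ := h'.ne
  haveI : Nontrivial W := ⟨y, 0, hy0⟩
  obtain ⟨a₀, ha₀, e₀⟩ := h.surj y hy hy0 x₀ hx₀
  obtain ⟨b₀, hb₀, e⟩ := h.exists_inv h' ha₀ fun e => hx0 (e₀ ▸ DFunLike.congr_fun e y)
  have hw := h.weyl ha₀ e
  haveI : Nontrivial (AddMonoid.End W) := ⟨1, 0, fun e => hy0 (DFunLike.congr_fun e y)⟩
  have hβ : ρ b₀ - 1 ≠ 0 := fun e1 => by simp [e1] at e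
  set β := ρ b₀ - 1
  have hadd : ∀ a ∈ A, ∀ a' ∈ A, ρ (a * a') - 1 = (ρ a - 1) + (ρ a' - 1) := fun a ha a' ha' => by
    rw [map_mul, ← add_zero (_ + _), ← h.mul ha ha']; noncomm_ring
  have hneg : ∀ a ∈ A, ρ a⁻¹ - 1 = -(ρ a - 1) := fun a ha => by
    have := hadd _ (A.inv_mem ha) a ha
    rw [inv_mul_cancel, map_one, sub_self] at this
    exact eq_neg_of_add_eq_zero_left this.symm
  let J : AddSubgroup (AddMonoid.End W) :=
    { carrier := {j | ∃ a ∈ A, j = (ρ a - 1) * β + β * (ρ a - 1)}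
      zero_mem' := ⟨1, A.one_mem, by simp⟩
      add_mem' := by
        rintro _ _ ⟨a, ha, rfl⟩ ⟨a', ha', rfl⟩
        exact ⟨_, A.mul_mem ha ha', by rw [hadd a ha a' ha']; noncomm_ring⟩
      neg_mem' := by
        rintro _ ⟨a, ha, rfl⟩
        exact ⟨_, A.inv_mem ha, by rw [hneg a ha]; noncomm_ring⟩ }
  have hX : ∀ a ∈ A, ∀ x ∈ X, ((ρ a - 1) * β + β * (ρ a - 1)) x = (ρ a - 1) (β x) :=
    fun a ha x hx => by
      change (ρ a - 1) (β x) + β ((ρ a - 1) x) = _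
      rw [h.zero ha hx, map_zero, add_zero]
  obtain ⟨γ, ⟨a₁, ha₁, hγ⟩, hgen⟩ := jordan_cyclic hp2 J
    (by simpa [e] using J.neg_mem ⟨a₀, ha₀, rfl⟩) (by
      rintro _ ⟨a, ha, rfl⟩
      obtain ⟨a', ha', e'⟩ := h.jordan h' ha hb₀
      refine ⟨_, A.inv_mem ha', ?_⟩
      have h1 := h.mul ha ha
      have h2 : β * β = 0 := h'.mul hb₀ hb₀
      rw [hneg a' ha', e', neg_neg]
      change _ = (ρ a - 1) * β * (ρ a - 1) * β + β * ((ρ a - 1) * β * (ρ a - 1))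
      generalize ρ a - 1 = α at *
      calc (α * β + β * α) * (α * β + β * α) =
          α * β * α * β + β * (α * β * α) + α * (β * β) * α + β * (α * α) * β := by noncomm_ring
        _ = _ := by rw [h1, h2]; noncomm_ring) (by
      rintro _ ⟨a, ha, rfl⟩ w hw
      by_cases h0 : ρ a - 1 = 0
      · exact Or.inl (by simp [h0])
      obtain ⟨x, hx, y, hy, rfl⟩ := h.sup w
      have h1 : (ρ a - 1) (β x) + β ((ρ a - 1) y) = 0 := by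
        rw [map_add, hX a ha x hx] at hw
        rw [← hw]
        change _ = _ + ((ρ a - 1) (β y) + β ((ρ a - 1) y))
        rw [h'.zero hb₀ hy, map_zero, zero_add]
      have h2 : (ρ a - 1) (β x) = 0 := h.disj _ (h.mem a ha _) (by
        rw [eq_neg_of_add_eq_zero_left h1]; exact Y.neg_mem (h'.mem _ hb₀ _))
      rw [h2, zero_add] at h1
      rw [h'.inj hb₀ hβ hx (h.inj ha h0 (h'.mem _ hb₀ x) h2),
        h.inj ha h0 hy (h'.inj hb₀ hβ (h.mem a ha y) h1)]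
      exact Or.inr (add_zero 0))
  have h0 : ρ a₁ - 1 ≠ 0 := fun e1 => by
    obtain ⟨n, hn⟩ := hgen (-1) (e ▸ ⟨a₀, ha₀, rfl⟩) (neg_ne_zero.2 one_ne_zero)
    rw [hγ, e1, zero_mul, mul_zero, add_zero] at hn
    rcases n with _ | n
    · have h1 : y = -y := DFunLike.congr_fun hn y
      obtain ⟨m, hm⟩ := hp.out.odd_of_ne_two hp2
      have h2 := key h' y hy
      rw [hm, add_smul, mul_comm, mul_smul, two_smul, eq_neg_iff_add_eq_zero.1 h1] at h2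
      exact hy0 (by simpa using h2)
    · simp at hn
  obtain ⟨b₁, hb₁, e₁⟩ := h.exists_inv h' ha₁ h0
  have hg : ∀ x ∈ X, ρ (a₁ * b₁ * a₁ * (a₀ * b₀ * a₀)) x = γ x := fun x hx => by
    rw [map_mul, hw, h.weyl ha₁ e₁, hγ, hX a₁ ha₁ x hx]
    change (ρ a₁ - 1) ((ρ a₀ - 1) x + β x) + (ρ b₁ - 1) ((ρ a₀ - 1) x + β x) = _
    rw [h.zero ha₀ hx, zero_add, h'.zero hb₁ (show β x ∈ Y from h'.mem _ hb₀ x), add_zero]
  have hγX : ∀ x ∈ X, γ x ∈ X := fun x hx => by rw [hγ, hX a₁ ha₁ x hx]; exact h.mem _ ha₁ _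
  refine ⟨_, fun x hx => hg x hx ▸ hγX x hx, fun x hx x' hx' h1 h2 => ?_⟩
  obtain ⟨a, ha, e'⟩ := h.surj (β x) (h'.mem _ hb₀ x) (fun e => h1 (h'.inj hb₀ hβ hx e)) x' hx'
  have e'' : ((ρ a - 1) * β + β * (ρ a - 1)) x = x' := (hX a ha x hx).trans e'
  obtain ⟨n, hn⟩ := hgen _ ⟨a, ha, rfl⟩ fun e => h2 (by rw [← e'', e]; rfl)
  refine ⟨n, ?_⟩
  rw [← e'', ← hn]
  clear hn e'' e' h1
  induction n generalizing x with
  | zero => simp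
  | succ n ih =>
    rw [pow_succ, pow_succ, map_mul]
    exact (congrArg _ (hg x hx)).trans (ih _ (hγX x hx))

end Abs

section Amb

variable {G : Type*} [Group G] {L A B U X Y Z : Subgroup G}

/-- `A` induces a full group of elations with axis `X / Z` on `U / Z`. -/
structure ElatM (L A U X Y Z : Subgroup G) : Prop where
  le : A ≤ L
  leZ : Z ≤ X
  leU : X ≤ U
  disj : X ⊓ Y ≤ Z
  sup : ∀ u ∈ U, ∃ x ∈ X, ∃ y ∈ Y, u = x * y
  fix : ∀ a ∈ A, ∀ x ∈ X, a * x * a⁻¹ = x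
  mem : ∀ a ∈ A, ∀ u ∈ U, ⁅a, u⁆ ∈ X
  surj : ∀ y ∈ Y, y ∉ Z → ∀ x ∈ X, ∃ a ∈ A, x⁻¹ * ⁅a, y⁆ ∈ Z
  same : ∀ l ∈ L, ∀ y ∈ Y, y ∉ Z → l * y * l⁻¹ ∈ Y → ∀ y' ∈ Y, l * y' * l⁻¹ ∈ Y
  swap : ∀ l ∈ L, ∀ y ∈ Y, y ∉ Z → l * y * l⁻¹ ∈ X → ∀ y' ∈ Y, l * y' * l⁻¹ ∈ X
  ne : ¬ Y ≤ Z

open scoped IsMulCommutative in
theorem ElatM.exists_singer [Finite G] {p : ℕ} [hp : Fact p.Prime] (hp2 : p ≠ 2)
    [IsMulCommutative U] (hU : IsPGroup p U) (hLU : L ≤ normalizer (U : Set G))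
    (hLZ : ∀ l ∈ L, ∀ z ∈ Z, l * z * l⁻¹ ∈ Z) (h : ElatM L A U X Y Z) (h' : ElatM L B U Y X Z) :
    ∃ g ∈ L, (∀ x ∈ X, g * x * g⁻¹ ∈ X) ∧ ∀ x ∈ X, ∀ x' ∈ X, x ∉ Z → x' ∉ Z →
      ∃ n : ℕ, x'⁻¹ * (g ^ n * x * (g ^ n)⁻¹) ∈ Z := by
  let Z' := Z.subgroupOf U
  let ρ₀ : L →* MulAut U := U.normalizerMonoidHom.comp (inclusion hLU)
  have e₀ : ∀ (l : L) (u : U), (ρ₀ l u : G) = l * u * (l : G)⁻¹ := fun _ _ => rfl
  let ρ := (autEnd (U ⧸ Z')).comp (quoAct ρ₀ Z' fun l z hz => hLZ l l.2 z hz)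
  let m : U → Additive (U ⧸ Z') := fun u => Additive.ofMul (u : U ⧸ Z')
  have hm : Function.Surjective m := fun w => QuotientGroup.mk_surjective w.toMul
  have e₁ : ∀ l u, ρ l (m u) = m (ρ₀ l u) := fun _ _ => rfl
  have e₂ : ∀ u v, m u = m v ↔ (u : G)⁻¹ * v ∈ Z := fun u v =>
    Additive.ofMul.apply_eq_iff_eq.trans QuotientGroup.eq
  have e₃ : ∀ u, m u = 0 ↔ (u : G) ∈ Z := fun u => QuotientGroup.eq_one_iff u
  let b : Subgroup G → AddSubgroup (Additive (U ⧸ Z')) := fun X =>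
    ((X.subgroupOf U).map (QuotientGroup.mk' Z')).toAddSubgroup
  have e₄ : ∀ {X : Subgroup G}, Z ≤ X → ∀ u, m u ∈ b X ↔ (u : G) ∈ X := fun {X} hX u =>
    ⟨fun ⟨v, hv, e⟩ => by simpa using X.mul_mem hv (hX ((e₂ v u).1 e)), fun hu => ⟨u, hu, rfl⟩⟩
  have key : ∀ {A X Y}, ElatM L A U X Y Z → Z ≤ Y → Y ≤ U → Elat ρ (A.subgroupOf L) (b X) (b Y) :=
    fun {A X Y} h hZ hY =>
    { disj := fun w h1 h2 => by
        obtain ⟨u, rfl⟩ := hm w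
        exact (e₃ u).2 (h.disj ⟨(e₄ h.leZ u).1 h1, (e₄ hZ u).1 h2⟩)
      sup := fun w => by
        obtain ⟨u, rfl⟩ := hm w
        obtain ⟨x, hx, y, hy, e⟩ := h.sup u u.2
        exact ⟨m ⟨x, h.leU hx⟩, (e₄ h.leZ _).2 hx, m ⟨y, hY hy⟩, (e₄ hZ _).2 hy,
          congrArg m (Subtype.ext e)⟩
      fix := fun a ha w hw => by
        obtain ⟨u, rfl⟩ := hm w
        exact congrArg m (Subtype.ext (h.fix a ha u ((e₄ h.leZ u).1 hw)))
      mem := fun a ha w => by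
        obtain ⟨u, rfl⟩ := hm w
        exact (e₄ h.leZ (ρ₀ a u / u)).2 (by simpa [e₀, div_eq_mul_inv, commutatorElement_def] using h.mem a ha u u.2)
      surj := fun w hw h0 w' hw' => by
        obtain ⟨u, rfl⟩ := hm w
        obtain ⟨v, rfl⟩ := hm w'
        obtain ⟨a, ha, e⟩ := h.surj u ((e₄ hZ u).1 hw) (mt (e₃ u).2 h0) v ((e₄ h.leZ v).1 hw')
        exact ⟨⟨a, h.le ha⟩, ha, ((e₂ v (ρ₀ ⟨a, h.le ha⟩ u / u)).2
          (by simpa [e₀, div_eq_mul_inv, commutatorElement_def] using e)).symm⟩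
      same := fun l w hw h0 h1 w' hw' => by
        obtain ⟨u, rfl⟩ := hm w
        obtain ⟨v, rfl⟩ := hm w'
        exact (e₄ hZ (ρ₀ l v)).2 (h.same l l.2 u ((e₄ hZ u).1 hw) (mt (e₃ u).2 h0)
          ((e₄ hZ (ρ₀ l u)).1 h1) v ((e₄ hZ v).1 hw'))
      swap := fun l w hw h0 h1 w' hw' => by
        obtain ⟨u, rfl⟩ := hm w
        obtain ⟨v, rfl⟩ := hm w'
        exact (e₄ h.leZ (ρ₀ l v)).2 (h.swap l l.2 u ((e₄ hZ u).1 hw) (mt (e₃ u).2 h0)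
          ((e₄ h.leZ (ρ₀ l u)).1 h1) v ((e₄ hZ v).1 hw'))
      ne := by
        obtain ⟨y, hy, h0⟩ := SetLike.not_le_iff_exists.1 h.ne
        exact ⟨m ⟨y, hY hy⟩, (e₄ hZ _).2 hy, mt (e₃ _).1 h0⟩ }
  obtain ⟨g, h1, h2⟩ := (key h h'.leZ h'.leU).exists_singer hp2 (fun w => by
    obtain ⟨u, rfl⟩ := hm w
    obtain ⟨k, hk⟩ := hU u
    exact ⟨k, (show _ = m (u ^ p ^ k) from rfl).trans (hk ▸ rfl)⟩) (key h' h.leZ h.leU)
  refine ⟨g, g.2, fun x hx => (e₄ h.leZ (ρ₀ g ⟨x, h.leU hx⟩)).1 (h1 _ ((e₄ h.leZ _).2 hx)),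
    fun x hx x' hx' h3 h4 => ?_⟩
  obtain ⟨n, hn⟩ := h2 (m ⟨x, h.leU hx⟩) ((e₄ h.leZ _).2 hx) (m ⟨x', h.leU hx'⟩)
    ((e₄ h.leZ _).2 hx') (mt (e₃ _).1 h3) (mt (e₃ _).1 h4)
  exact ⟨n, (e₂ ⟨x', h.leU hx'⟩ (ρ₀ (g ^ n) ⟨x, h.leU hx⟩)).1 hn.symm⟩

end Amb

end Cfsg.Agent.H1
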